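import Cfsg.Agent.H252.EN.Tab

/-!
# S5745, layer ENUM: the kernel checks of the tables (helper252)
-/

set_option autoImplicit false

namespace Cfsg.Agent.H252.EN

open Cfsg.Agent.H902 Cfsg.Agent.H290.ElReg Cfsg.Agent.H290.ElTab

set_option maxRecDepth 100000

/-- `E₈(q)`: nothing survives -/
theorem chk_e8 : chk .E8 248 [] = true := by decide +kernel

theorem chkA_e8 : chkA .E8 18 [] = true := by decide +kernel

theorem chkTi_e8 : chkTi .E8 [] = true := by decide +kernel

/-- `E₇(q)` -/
def alE7 : List ((Art.Sh × ℕ × ℕ) × ℕ) := [((.C 3, (3, 1)), 2), ((.C 6, (2, 1)), 15), ((.G2, (2, 3)), 3)]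

theorem chk_e7 : chk .E7 133 alE7 = true := by decide +kernel

theorem chkA_e7 : chkA .E7 14 [(13, 2), (14, 2)] = true := by decide +kernel

theorem chkTi_e7 : chkTi .E7 [] = true := by decide +kernel

end Cfsg.Agent.H252.EN
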