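import Cfsg.Agent.H252.EN.TabK

/-!
# S5745, layer ENUM, `T ^ k`, `k ≥ 2`: the fast kernel tests (helper252)
-/

set_option autoImplicit false

namespace Cfsg.Agent.H252.EN

open Cfsg.Agent.H902 Cfsg.Agent.H290.ElReg Cfsg.Agent.H290.ElTab Cfsg.Agent.H746.EK

/-- forced evaluation -/
def frc {α : Type} (n : ℕ) (f : ℕ → α) : α := Nat.rec (f 0) (fun k _ => f (Nat.succ k)) n

theorem frc_eq {α : Type} (n : ℕ) (f : ℕ → α) : frc n f = f n := by
  cases n <;> rfl

def pm1 (q e : ℕ) : ℕ := Nat.sub (Nat.pow q e) 1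

/-- `q ^ NN * num` -/
def fv : Art.Sh → ℕ → ℕ
  | .E8, q => Nat.mul (Nat.pow q 120) (Nat.mul (Nat.mul (Nat.mul (Nat.mul (Nat.mul (Nat.mul (Nat.mul (pm1 q 2) (pm1 q 8))
      (pm1 q 12)) (pm1 q 14)) (pm1 q 18)) (pm1 q 20)) (pm1 q 24)) (pm1 q 30))
  | .E7, q => Nat.mul (Nat.pow q 63) (Nat.mul (Nat.mul (Nat.mul (Nat.mul (Nat.mul (Nat.mul (pm1 q 2) (pm1 q 6))
      (pm1 q 8)) (pm1 q 10)) (pm1 q 12)) (pm1 q 14)) (pm1 q 18))
  | .E6, q => Nat.mul (Nat.pow q 36) (Nat.mul (Nat.mul (Nat.mul (Nat.mul (Nat.mul (pm1 q 2) (pm1 q 5))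
      (pm1 q 6)) (pm1 q 8)) (pm1 q 9)) (pm1 q 12))
  | .TE6, q => Nat.mul (Nat.pow q 36) (Nat.mul (Nat.mul (Nat.mul (Nat.mul (Nat.mul (pm1 q 2) (Nat.succ (Nat.pow q 5)))
      (pm1 q 6)) (pm1 q 8)) (Nat.succ (Nat.pow q 9))) (pm1 q 12))
  | .F4, q => Nat.mul (Nat.pow q 24) (Nat.mul (Nat.mul (Nat.mul (pm1 q 2) (pm1 q 6)) (pm1 q 8)) (pm1 q 12))
  | .TD4, q => Nat.mul (Nat.pow q 12) (Nat.mul (Nat.mul (pm1 q 2) (pm1 q 6))
      (Nat.succ (Nat.add (Nat.pow q 8) (Nat.pow q 4))))
  | .G2, q => Nat.mul (Nat.pow q 6) (Nat.mul (pm1 q 2) (pm1 q 6))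
  | X, q => q ^ Art.NN X * Art.num X q

theorem fv_eq (Y : Art.Sh) (q : ℕ) : fv Y q = q ^ Art.NN Y * Art.num Y q := by
  cases Y <;> rfl

/-- `num` -/
def fn : Art.Sh → ℕ → ℕ
  | .E8, q => Nat.mul (Nat.mul (Nat.mul (Nat.mul (Nat.mul (Nat.mul (Nat.mul (pm1 q 2) (pm1 q 8))
      (pm1 q 12)) (pm1 q 14)) (pm1 q 18)) (pm1 q 20)) (pm1 q 24)) (pm1 q 30)
  | .E7, q => Nat.mul (Nat.mul (Nat.mul (Nat.mul (Nat.mul (Nat.mul (pm1 q 2) (pm1 q 6))
      (pm1 q 8)) (pm1 q 10)) (pm1 q 12)) (pm1 q 14)) (pm1 q 18)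
  | .E6, q => Nat.mul (Nat.mul (Nat.mul (Nat.mul (Nat.mul (pm1 q 2) (pm1 q 5))
      (pm1 q 6)) (pm1 q 8)) (pm1 q 9)) (pm1 q 12)
  | .TE6, q => Nat.mul (Nat.mul (Nat.mul (Nat.mul (Nat.mul (pm1 q 2) (Nat.succ (Nat.pow q 5)))
      (pm1 q 6)) (pm1 q 8)) (Nat.succ (Nat.pow q 9))) (pm1 q 12)
  | .F4, q => Nat.mul (Nat.mul (Nat.mul (pm1 q 2) (pm1 q 6)) (pm1 q 8)) (pm1 q 12)
  | .TD4, q => Nat.mul (Nat.mul (pm1 q 2) (pm1 q 6)) (Nat.succ (Nat.add (Nat.pow q 8) (Nat.pow q 4)))
  | .G2, q => Nat.mul (pm1 q 2) (pm1 q 6)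
  | X, q => Art.num X q

theorem fn_eq (Y : Art.Sh) (q : ℕ) : fn Y q = Art.num Y q := by
  cases Y <;> rfl

def fdd : Art.Sh → ℕ → ℕ
  | .E8, _ => 1
  | .E7, q => Nat.gcd 2 (Nat.sub q 1)
  | .E6, q => Nat.gcd 3 (Nat.sub q 1)
  | .TE6, q => Nat.gcd 3 (Nat.succ q)
  | .F4, _ => 1
  | .TD4, _ => 1
  | .G2, _ => 1
  | X, q => Art.dd X q

theorem fdd_eq (Y : Art.Sh) (q : ℕ) : fdd Y q = Art.dd Y q := by
  cases Y <;> rfl

variable {α : Type} [DecidableEq α]

/-- the test for one `q` -/
def tqF (Y : Art.Sh) (lab : α) (al : List (α × ℕ)) (m l u q0 : ℕ) : Bool :=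
  frc q0 fun q => or (Nat.ble q 1) (or (Nat.beq (Nat.mod q l) 0)
    (frc (fv Y q) fun v => frc (fdd Y q) fun d =>
      or (Nat.ble (Nat.succ (Nat.mul u d)) v) (or (not (Nat.beq (Nat.mod v (Nat.mul m d)) 0)) (al.contains (lab, q)))))

theorem tqF_spec {Y : Art.Sh} {lab : α} {al : List (α × ℕ)} {m l u p f g : ℕ}
    (h : tqF Y lab al m l u (p ^ f) = true) (hG : Art.Real Y p f g) (hl : p ^ f % l ≠ 0) (hu : g ≤ u)
    (hd : m ∣ g) : (lab, p ^ f) ∈ al := by
  have hq : 2 ≤ p ^ f := hG.hp.two_le.trans (Nat.le_self_pow (by have := hG.hf; omega) p)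
  rw [tqF, frc_eq, frc_eq, frc_eq, fv_eq, fdd_eq, Bool.or_eq_true, Bool.or_eq_true, Bool.or_eq_true, Bool.or_eq_true,
    Nat.ble_eq, Nat.ble_eq, Bool.not_eq_true', ← Bool.not_eq_true] at h
  rcases h with h3 | h3 | h3 | h3 | h3
  · omega
  · exact absurd (Nat.eq_of_beq_eq_true h3) hl
  · exfalso
    have h4 : u * Art.dd Y (p ^ f) + 1 ≤ (p ^ f) ^ Art.NN Y * Art.num Y (p ^ f) := h3
    rw [← hG.eq, mul_comm u] at h4
    exact absurd (Nat.mul_le_mul_left (Art.dd Y (p ^ f)) hu) (by omega)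
  · exfalso
    apply h3
    have h4 : ((p ^ f) ^ Art.NN Y * Art.num Y (p ^ f)) % (m * Art.dd Y (p ^ f)) = 0 := by
      rw [← hG.eq, mul_comm m]
      exact Nat.mod_eq_zero_of_dvd (Nat.mul_dvd_mul_left _ hd)
    show Nat.beq (((p ^ f) ^ Art.NN Y * Art.num Y (p ^ f)) % (m * Art.dd Y (p ^ f))) 0 = true
    rw [h4]
    rfl
  · rwa [List.contains_iff_mem] at h3

/-- a guess for `log₂` of the bound for `q` -/
def g1 (Y : Art.Sh) (u3 : ℕ) : ℕ :=
  frc (Nat.mul (dmN Y) 8) fun d8 => frc (Nat.pow 2 d8) fun P =>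
    match (List.range 60).find? (fun j => Nat.ble (Nat.succ u3) (Nat.pow P j)) with
    | none => 0
    | some j => frc (Nat.mul 8 (Nat.sub j 1)) fun t0 =>
      match (List.range 9).find? (fun i => Nat.ble (Nat.succ u3) (Nat.pow 2 (Nat.mul (dmN Y) (Nat.add t0 i)))) with
      | none => 0
      | some i => Nat.add t0 i

def cN (t c : ℕ) : ℕ := Nat.succ (Nat.mul (Nat.pow 2 (Nat.sub (Nat.add t (Nat.div c 4)) 3)) (Nat.add 4 (Nat.mod c 4)))

/-- a bound for `q` (only a guess, it is checked) -/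
def g2 (Y : Art.Sh) (u3 t : ℕ) : ℕ :=
  match (List.range 24).find? (fun c => Nat.ble (Nat.succ u3) (fv Y (cN t c))) with
  | none => 0
  | some c => cN t c

/-- the test for `q = 2 ^ i`; all numbers that are kept are odd (the hash of a literal is its residue modulo `2 ^ 64`) -/
def tqE (Y : Art.Sh) (lab : α) (al : List (α × ℕ)) (m' u i : ℕ) : Bool :=
  or (Nat.beq i 0) (frc (fn Y (Nat.pow 2 i)) fun w => frc (fdd Y (Nat.pow 2 i)) fun d =>
    or (Nat.ble (Nat.succ (Nat.div (Nat.mul u d) (Nat.pow 2 (Nat.mul i (Art.NN Y))))) w)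
      (or (and (Nat.beq (Nat.mod (Nat.mul m' d) 2) 1) (not (Nat.beq (Nat.mod w (Nat.mul m' d)) 0)))
        (al.contains (lab, Nat.pow 2 i))))

theorem tqE_spec {Y : Art.Sh} {lab : α} {al : List (α × ℕ)} {m' u p f g : ℕ} (hp : p = 2)
    (h : tqE Y lab al m' u f = true) (hG : Art.Real Y p f g) (hu : g ≤ u)
    (hd : m' ∣ g) : (lab, p ^ f) ∈ al := by
  subst hp
  have hf := hG.hf
  rw [tqE, frc_eq, frc_eq, fn_eq, fdd_eq] at h
  have e0 : Nat.pow 2 f = 2 ^ f := rfl
  have e1 : (2 ^ f) ^ Art.NN Y = 2 ^ (f * Art.NN Y) := by rw [pow_mul]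
  have heq := hG.eq
  rw [e1] at heq
  rw [e0] at h
  simp only [Bool.or_eq_true, Bool.and_eq_true, Nat.ble_eq, Bool.not_eq_true', List.contains_iff_mem] at h
  rcases h with h3 | h3 | h3 | h3
  · have := Nat.eq_of_beq_eq_true h3
    omega
  · exfalso
    have h4 : u * Art.dd Y (2 ^ f) / 2 ^ (f * Art.NN Y) < Art.num Y (2 ^ f) := h3
    rw [Nat.div_lt_iff_lt_mul (by positivity), mul_comm (Art.num Y (2 ^ f)), ← heq, mul_comm u] at h4
    exact absurd (Nat.mul_le_mul_left (Art.dd Y (2 ^ f)) hu) (by omega)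
  · exfalso
    obtain ⟨h4, h5⟩ := h3
    have h4' : (m' * Art.dd Y (2 ^ f)) % 2 = 1 := Nat.eq_of_beq_eq_true h4
    have h6 : m' * Art.dd Y (2 ^ f) ∣ Art.num Y (2 ^ f) := by
      refine Nat.Coprime.dvd_of_dvd_mul_left (m := 2 ^ (f * Art.NN Y)) ?_ ?_
      · exact Nat.Coprime.pow_right _ ((Nat.coprime_two_right).2 (Nat.odd_iff.2 h4'))
      · rw [← heq, mul_comm m']
        exact Nat.mul_dvd_mul_left _ hd
    have h7 : Nat.mod (Art.num Y (2 ^ f)) (Nat.mul m' (Art.dd Y (2 ^ f))) = 0 := Nat.mod_eq_zero_of_dvd h6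
    rw [h7] at h5
    exact absurd h5 (by decide)
  · exact h3

def chkEF (Y : Art.Sh) (lab : α) (al : List (α × ℕ)) (m' l u E : ℕ) : Bool :=
  or (Nat.beq l 2) ((List.range E).all fun i => tqE Y lab al m' u i)

def chkOF (Y : Art.Sh) (lab : α) (al : List (α × ℕ)) (m l u N w : ℕ) : Bool :=
  frc (Nat.pow 2 (max 3 ((w - (cf Y).2 + (cf Y).1 - 1) / (cf Y).1) - 1)) fun s =>
    (List.range (Nat.add (Nat.div N s) 2)).all fun j =>
      and (or (Nat.ble N (Nat.succ (Nat.mul s j))) (tqF Y lab al m l u (Nat.succ (Nat.mul s j))))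
        (or (Nat.ble N (Nat.sub (Nat.mul s j) 1)) (tqF Y lab al m l u (Nat.sub (Nat.mul s j) 1)))

/-- the test for `T ^ k`, `|T| = t`, `2 ^ v ∣ t`, bound `u` for `|G|` -/
def chkUF (Y : Art.Sh) (lab : α) (al : List (α × ℕ)) (t k l v u : ℕ) : Bool :=
  frc (Nat.mul 3 u) fun u3 => frc (g1 Y u3) fun r => frc (g2 Y u3 r) fun N =>
    and (Nat.ble (Nat.succ u3) (fv Y N)) (and (Nat.ble N (Nat.pow 2 (Nat.add r 5)))
    (and (frc (Nat.pow (Nat.div t (Nat.pow 2 v)) k) fun m' => chkEF Y lab al m' l u (Nat.add r 5))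
      (or (Nat.ble (Nat.succ (kodd Y)) k) (chkOF Y lab al (Nat.pow t k) l u N (Nat.mul k v)))))

theorem chkUF_spec {Y : Art.Sh} (hY : Y ∈ Ys) {lab : α} {al : List (α × ℕ)} {t k l v u : ℕ}
    (h : chkUF Y lab al t k l v u = true) (hv : 2 ^ v ∣ t) {p f g : ℕ} (hG : Art.Real Y p f g) (hl : p ^ f % l ≠ 0)
    (hu : g ≤ u) (hd : t ^ k ∣ g) (hk : Odd p → Y ∈ Yo ∧ k ≤ kodd Y) : (lab, p ^ f) ∈ al := by
  have hq : 2 ≤ p ^ f := hG.hp.two_le.trans (Nat.le_self_pow (by have := hG.hf; omega) p)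
  rw [chkUF, frc_eq, frc_eq, frc_eq, frc_eq] at h
  set r := g1 Y (Nat.mul 3 u) with hr
  set N := g2 Y (Nat.mul 3 u) r with hN
  simp only [Bool.and_eq_true, Bool.or_eq_true, Nat.ble_eq] at h
  obtain ⟨h1, hNE, hE, hO⟩ := h
  have hNE' : N ≤ 2 ^ (r + 5) := hNE
  rw [fv_eq] at h1
  have h1' : 3 * u + 1 ≤ N ^ Art.NN Y * Art.num Y N := h1
  have h2 : p ^ f < N := by
    by_contra hcon
    push Not at hcon
    have h3 : N ^ Art.NN Y * Art.num Y N ≤ (p ^ f) ^ Art.NN Y * Art.num Y (p ^ f) :=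
      Nat.mul_le_mul (Nat.pow_le_pow_left hcon _) (num_mono hY hcon)
    rw [← hG.eq] at h3
    have h4 : Art.dd Y (p ^ f) * g ≤ 3 * u := Nat.mul_le_mul (dd_le hY _) hu
    omega
  rcases hG.hp.eq_two_or_odd' with h5 | h5
  · rw [chkEF, Bool.or_eq_true] at hE
    rcases hE with hE | hE
    · exfalso
      apply hl
      rw [Nat.eq_of_beq_eq_true hE, h5]
      exact Nat.mod_eq_zero_of_dvd (dvd_pow_self 2 (by have := hG.hf; omega))
    · have h6 := List.all_eq_true.1 hE f (List.mem_range.2 (by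
        have h7 : 2 ^ f < N := by rw [h5] at h2; exact h2
        exact (Nat.pow_lt_pow_iff_right (by norm_num)).1 (h7.trans_le hNE')))
      refine tqE_spec h5 h6 hG hu (dvd_trans ?_ hd)
      exact pow_dvd_pow_of_dvd (Nat.div_dvd_of_dvd hv) k
  · obtain ⟨hYo, hk'⟩ := hk h5
    rcases hO with hO | hO
    · exfalso
      have : kodd Y + 1 ≤ k := hO
      omega
    have hqo : Odd (p ^ f) := h5.pow
    have hq3 : 3 ≤ p ^ f := by
      obtain ⟨c, hc⟩ := hqo
      omega
    have h6 : 2 ^ (k * v) ∣ (p ^ f) ^ Art.NN Y * Art.num Y (p ^ f) := by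
      rw [← hG.eq, mul_comm k, pow_mul]
      exact ((pow_dvd_pow_of_dvd hv k).trans hd).mul_left _
    have h7 := V2_of hYo hqo hq3 h6
    rw [chkOF, frc_eq] at hO
    have hO' : ((List.range (N / 2 ^ (max 3 ((k * v - (cf Y).2 + (cf Y).1 - 1) / (cf Y).1) - 1) + 2)).all fun j =>
      and (or (Nat.ble N (2 ^ (max 3 ((k * v - (cf Y).2 + (cf Y).1 - 1) / (cf Y).1) - 1) * j + 1))
          (tqF Y lab al (t ^ k) l u (2 ^ (max 3 ((k * v - (cf Y).2 + (cf Y).1 - 1) / (cf Y).1) - 1) * j + 1)))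
        (or (Nat.ble N (2 ^ (max 3 ((k * v - (cf Y).2 + (cf Y).1 - 1) / (cf Y).1) - 1) * j - 1))
          (tqF Y lab al (t ^ k) l u (2 ^ (max 3 ((k * v - (cf Y).2 + (cf Y).1 - 1) / (cf Y).1) - 1) * j - 1)))) =
        true := hO
    clear hO
    set w := k * v
    set V := max 3 ((w - (cf Y).2 + (cf Y).1 - 1) / (cf Y).1)
    have hc1 : 0 < (cf Y).1 := by
      simp only [Yo, List.mem_cons, List.not_mem_nil, or_false] at hYo
      rcases hYo with rfl | rfl | rfl | rfl | rfl <;> simp [cf]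
    have hV : V ≤ V2 (p ^ f) := by
      refine max_le (V2_ge hqo hq3) ?_
      rw [← Nat.lt_succ_iff, Nat.div_lt_iff_lt_mul hc1, Nat.succ_mul, mul_comm]
      omega
    have hV3 : 3 ≤ V := le_max_left _ _
    obtain ⟨V', hV'⟩ : ∃ V', V = V' + 2 := ⟨V - 2, by omega⟩
    have h8 : 2 ^ (V' + 2) ∣ (p ^ f) ^ 2 - 1 := by
      rw [← hV']
      exact (padicValNat_dvd_iff_le (pow_sub_ne hq3 (by norm_num))).2 hV
    have hs : 2 ^ (V - 1) = 2 ^ (V' + 1) := by rw [hV']; rfl
    rw [hs] at hO'
    have hs1 : 2 ≤ 2 ^ (V' + 1) := by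
      rw [pow_succ]
      have := Nat.one_le_two_pow (n := V')
      omega
    have key : ∀ j, (p ^ f = 2 ^ (V' + 1) * j + 1 ∨ p ^ f + 1 = 2 ^ (V' + 1) * j) → (lab, p ^ f) ∈ al := by
      intro j hj
      have h9 : 2 ^ (V' + 1) * j ≤ N := by omega
      have h9' : j ≤ N / 2 ^ (V' + 1) := (Nat.le_div_iff_mul_le (by omega)).2 (by rw [mul_comm]; exact h9)
      have h10 := List.all_eq_true.1 hO' j (List.mem_range.2 (by omega))
      rw [Bool.and_eq_true, Bool.or_eq_true, Bool.or_eq_true, Nat.ble_eq, Nat.ble_eq] at h10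
      rcases hj with hj | hj
      · rcases h10.1 with h11 | h11
        · omega
        · rw [← hj] at h11
          exact tqF_spec h11 hG hl hu hd
      · have hj' : 2 ^ (V' + 1) * j - 1 = p ^ f := by omega
        rcases h10.2 with h11 | h11
        · omega
        · rw [hj'] at h11
          exact tqF_spec h11 hG hl hu hd
    obtain ⟨j, hj⟩ := pm hqo h8
    exact key j hj

/-! ### the bound -/

def mx (a b : ℕ) : ℕ := cond (Nat.ble a b) b a

theorem mx_eq (a b : ℕ) : mx a b = max a b := by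
  rw [mx]
  rcases Nat.lt_or_ge b a with h | h
  · have h1 : Nat.ble a b = false := by
      rw [← Bool.not_eq_true, Nat.ble_eq]
      omega
    rw [h1, max_eq_left h.le]
    rfl
  · rw [Nat.ble_eq.mpr h, max_eq_right h]
    rfl

def DkF (t k : ℕ) : ℕ :=
  cond (Nat.ble k 5) (mx (Nat.succ (Nat.div (Nat.pow t k) (Nat.pow 6 k))) (Nat.pow t (Nat.sub k 1))) (Nat.pow t k)

def IkF (t a k : ℕ) : ℕ := Nat.add (Nat.pow (Nat.mul k a) (Nat.sub k 1))
  (cond (Nat.ble k 5) 0 (Nat.mul (Nat.pow t (Nat.sub k 1)) (Nat.mul a (Nat.mul 4 k))))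

def BkF (L t a k : ℕ) : ℕ :=
  Nat.mul (Nat.add 1 (Nat.mul (Nat.add (Nat.pow L k) (IkF t a k)) (Nat.mul 2 (DkF t k))))
    (Nat.mul (Nat.pow a k) k.factorial)

theorem BkF_eq (L t a k : ℕ) : BkF L t a k = BkL L t a k := by
  rw [BkF, BkL, IkF, Ik, DkF, Dk]
  by_cases h : k ≤ 5
  · rw [Nat.ble_eq.mpr h, if_pos h, if_pos h]
    simp only [cond_true, mx_eq]
    rfl
  · have h1 : Nat.ble k 5 = false := by
      rw [← Bool.not_eq_true, Nat.ble_eq]
      exact h
    rw [h1, if_neg h, if_neg h]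
    rfl

/-- the test for all `k` -/
def chkTF (Y : Art.Sh) (D b : ℕ) (lab : α) (al : List ((α × ℕ) × ℕ)) (t a L l : ℕ) : Bool :=
  frc (vf 2 400 t) fun v => (List.range (D / 2 + 1)).all fun k => or (Nat.ble k 1) (or (Nat.ble (Nat.succ (D / k)) b)
    (frc (Nat.succ (BkF L t a k)) fun u => chkUF Y (lab, k) al t k l v u))

theorem chkTF_spec {Y : Art.Sh} (hY : Y ∈ Ys) {D b : ℕ} {lab : α} {al : List ((α × ℕ) × ℕ)} {t a L l : ℕ}
    (h : chkTF Y D b lab al t a L l = true) (hL : Lc t = L) {k p f g : ℕ} (hk : 2 ≤ k) (hkD : k ≤ D / 2)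
    (hb : b ≤ D / k) (hG : Art.Real Y p f g) (hl : p ^ f % l ≠ 0) (hu : g ≤ Bk t a k) (hd : t ^ k ∣ g)
    (ho : Odd p → Y ∈ Yo ∧ k ≤ kodd Y) : ((lab, k), p ^ f) ∈ al := by
  rw [chkTF, frc_eq] at h
  have h1 := List.all_eq_true.1 h k (List.mem_range.2 (by omega))
  rw [frc_eq, BkF_eq, ← hL, BkL_eq, Bool.or_eq_true, Bool.or_eq_true, Nat.ble_eq, Nat.ble_eq] at h1
  rcases h1 with h1 | h1 | h1
  · omega
  · exfalso
    have : D / k + 1 ≤ b := h1
    omega
  · exact chkUF_spec hY h1 (vf_dvd 2 400 t) hG hl (hu.trans (Nat.le_succ _)) hd ho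

/-! ### the literal tables -/

/-- names, degree bound, order, order of the automorphism group, `Lc` -/
def Tb : List ((Art.Sh × ℕ × ℕ) × ℕ × ℕ × ℕ × ℕ) := [
  ((.L 2, (2, 2)), (3, (60, (120, 120)))),
  ((.L 2, (2, 3)), (7, (504, (1512, 6007)))),
  ((.L 2, (2, 4)), (15, (4080, (16320, 329689)))),
  ((.L 2, (2, 5)), (31, (32736, (163680, 22664994)))),
  ((.L 2, (2, 6)), (63, (262080, (1572480, 2680991336)))),
  ((.L 2, (3, 2)), (4, (360, (1440, 3423)))),
  ((.L 2, (3, 3)), (13, (9828, (58968, 1738368)))),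
  ((.L 2, (3, 4)), (40, (265680, (2125440, 2660320935)))),
  ((.L 2, (3, 5)), (121, (7174332, (71743320, 29837070736019)))),
  ((.L 2, (5, 1)), (2, (60, (120, 120)))),
  ((.L 2, (5, 2)), (12, (7800, (31200, 1082437)))),
  ((.L 2, (5, 3)), (62, (976500, (5859000, 88969848743)))),
  ((.L 2, (7, 1)), (3, (168, (336, 946)))),
  ((.L 2, (7, 2)), (24, (58800, (235200, 74389806)))),
  ((.L 2, (11, 1)), (5, (660, (1320, 8052)))),
  ((.L 2, (11, 2)), (60, (885720, (3542880, 67603057889)))),
  ((.L 2, (13, 1)), (6, (1092, (2184, 21250)))),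
  ((.L 2, (13, 2)), (84, (2413320, (9653280, 1199989436266)))),
  ((.L 2, (17, 1)), (8, (2448, (4896, 130405)))),
  ((.L 2, (19, 1)), (9, (3420, (6840, 204348)))),
  ((.L 2, (23, 1)), (11, (6072, (12144, 650268)))),
  ((.L 2, (29, 1)), (14, (12180, (24360, 2630566)))),
  ((.L 2, (31, 1)), (15, (14880, (29760, 4881245)))),
  ((.L 2, (37, 1)), (18, (25308, (50616, 11993255)))),
  ((.L 2, (41, 1)), (20, (34440, (68880, 23083030)))),
  ((.L 2, (43, 1)), (21, (39732, (79464, 31285210)))),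
  ((.L 2, (47, 1)), (23, (51888, (103776, 56431586)))),
  ((.L 2, (53, 1)), (26, (74412, (148824, 125026328)))),
  ((.L 2, (59, 1)), (29, (102660, (205320, 260686249)))),
  ((.L 2, (61, 1)), (30, (113460, (226920, 329314156)))),
  ((.L 2, (67, 1)), (33, (150348, (300696, 643620490)))),
  ((.L 2, (71, 1)), (35, (178920, (357840, 983664455)))),
  ((.L 2, (73, 1)), (36, (194472, (388944, 1208154851)))),
  ((.L 2, (79, 1)), (39, (246480, (492960, 2190419299)))),
  ((.L 2, (83, 1)), (41, (285852, (571704, 3195049331)))),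
  ((.L 2, (89, 1)), (44, (352440, (704880, 5506766082)))),
  ((.L 2, (97, 1)), (48, (456288, (912576, 10953558861)))),
  ((.L 2, (101, 1)), (50, (515100, (1030200, 15147633732)))),
  ((.L 2, (103, 1)), (51, (546312, (1092624, 17770307880)))),
  ((.L 2, (107, 1)), (53, (612468, (1224936, 24283190579)))),
  ((.L 2, (109, 1)), (54, (647460, (1294920, 28288127489)))),
  ((.L 2, (113, 1)), (56, (721392, (1442784, 38140191942)))),
  ((.L 2, (127, 1)), (63, (1024128, (2048256, 106754091737)))),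
  ((.L 2, (131, 1)), (65, (1123980, (2247960, 132478956510)))),
  ((.L 2, (137, 1)), (68, (1285608, (2571216, 194282911403)))),
  ((.L 2, (139, 1)), (69, (1342740, (2685480, 220014628941)))),
  ((.L 2, (149, 1)), (74, (1653900, (3307800, 400588402212)))),
  ((.L 2, (151, 1)), (75, (1721400, (3442800, 449651781025)))),
  ((.L 2, (157, 1)), (78, (1934868, (3869736, 630790217482)))),
  ((.L 2, (163, 1)), (81, (2165292, (4330584, 874825945267)))),
  ((.L 2, (167, 1)), (83, (2328648, (4657296, 1081229181683)))),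
  ((.L 2, (173, 1)), (86, (2588772, (5177544, 1473067462224)))),
  ((.L 2, (179, 1)), (89, (2867580, (5735160, 1987350518070)))),
  ((.L 2, (181, 1)), (90, (2964780, (5929560, 2191403116270)))),
  ((.L 2, (191, 1)), (95, (3483840, (6967680, 3521870124936)))),
  ((.L 2, (193, 1)), (96, (3594432, (7188864, 3861082023627)))),
  ((.L 2, (197, 1)), (98, (3822588, (7645176, 4626501049433)))),
  ((.L 2, (199, 1)), (99, (3940200, (7880400, 5058858186147)))),
  ((.L 2, (211, 1)), (105, (4696860, (9393720, 8498178740611)))),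
  ((.L 2, (223, 1)), (111, (5544672, (11089344, 13888601361474)))),
  ((.L 2, (227, 1)), (113, (5848428, (11696856, 16266896375627)))),
  ((.L 2, (229, 1)), (114, (6004380, (12008760, 17587183615954)))),
  ((.L 2, (233, 1)), (116, (6324552, (12649104, 20517742813843)))),
  ((.L 2, (239, 1)), (119, (6825840, (13651680, 25731901513653)))),
  ((.L 2, (241, 1)), (120, (6998640, (13997280, 27715387168477)))),
  ((.C 2, (2, 2)), (15, (979200, (3916800, 157742395606)))),
  ((.C 2, (2, 3)), (63, (1056706560, (6340239360, 178583782736861132348)))),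
  ((.C 2, (3, 1)), (4, (25920, (51840, 25679427)))),
  ((.C 2, (3, 2)), (40, (1721606400, (6886425600, 400487853602976618142)))),
  ((.C 2, (5, 1)), (12, (4680000, (9360000, 8411374457288)))),
  ((.C 2, (7, 1)), (24, (138297600, (276595200, 207885845233529328)))),
  ((.C 2, (11, 1)), (60, (12860654400, (25721308800, 166913172987702441968054)))),
  ((.C 2, (13, 1)), (84, (68518981440, (137037962880, 25242262494110334302116180)))),
  ((.L 3, (2, 1)), (3, (168, (336, 946)))),
  ((.L 3, (2, 2)), (15, (20160, (241920, 16928853)))),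
  ((.L 3, (2, 3)), (63, (16482816, (98896896, 378673126113622)))),
  ((.L 3, (3, 1)), (8, (5616, (11232, 627539)))),
  ((.L 3, (3, 2)), (80, (42456960, (169827840, 6036036592618846)))),
  ((.L 3, (5, 1)), (24, (372000, (744000, 6373013627)))),
  ((.L 3, (7, 1)), (48, (1876896, (11261376, 577684635873)))),
  ((.L 3, (11, 1)), (120, (212427600, (424855200, 752941253654123562)))),
  ((.C 3, (2, 1)), (7, (1451520, (1451520, 2279074131560)))),
  ((.C 3, (2, 2)), (63, (4106059776000, (8212119552000, 12141455274502436632943504296145937355)))),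
  ((.C 3, (3, 1)), (13, (4585351680, (9170703360, 7575899567068918654555)))),
  ((.C 3, (5, 1)), (62, (228501000000000, (457002000000000, 936178272134727672557538472118644067)))),
  ((.U 3, (2, 2)), (12, (62400, (249600, 113424691)))),
  ((.U 3, (2, 3)), (56, (5515776, (99283968, 21290034400591)))),
  ((.U 3, (3, 1)), (6, (6048, (12096, 1031205)))),
  ((.U 3, (3, 2)), (72, (42573600, (170294400, 6085630011909233)))),
  ((.U 3, (5, 1)), (20, (126000, (756000, 424401101)))),
  ((.U 3, (7, 1)), (42, (5663616, (11327232, 14817569086868)))),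
  ((.U 3, (11, 1)), (110, (70915680, (425494080, 28068550427415212)))),
  ((.L 4, (2, 1)), (7, (20160, (40320, 16928853)))),
  ((.L 4, (2, 2)), (63, (987033600, (3948134400, 155779390123121086047)))),
  ((.L 4, (3, 1)), (26, (6065280, (24261120, 18208318755045)))),
  ((.L 4, (5, 1)), (124, (7254000000, (58032000000, 29952954748932196932203)))),
  ((.C 4, (2, 1)), (15, (47377612800, (47377612800, 1063890674372748263954778035633)))),
  ((.C 4, (3, 1)), (26, (65784756654489600, (131569513308979200, 113686385727353096465333365722359909101256658874)))),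
  ((.C 4, (5, 1)), (124, (6973279267500000000000000, (13946558535000000000000000, 1189344416577454214106196431929647901602379159801838070677966101694915)))),
  ((.U 4, (2, 1)), (4, (25920, (51840, 25679427)))),
  ((.U 4, (2, 2)), (48, (1018368000, (4073472000, 165746663589756372610)))),
  ((.U 4, (3, 1)), (18, (3265920, (26127360, 2957945463682)))),
  ((.U 4, (5, 1)), (100, (14742000000, (58968000000, 251402580019591640084745)))),
  ((.D 4, (2, 1)), (7, (174182400, (1045094400, 14587144865477917505)))),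
  ((.D 4, (2, 2)), (63, (67010895544320000, (804130746531840000, 1835037183429337812096964366039390074398478110672342309662372)))),
  ((.D 4, (3, 1)), (26, (4952179814400, (118852315545600, 9903217970454322483134263620555)))),
  ((.D 4, (5, 1)), (124, (8911539000000000000, (213876936000000000000, 55533198169746613192315951794551070306127118644067)))),
  ((.DD 4, (2, 1)), (7, (197406720, (394813440, 16665852529420239958)))),
  ((.DD 4, (2, 2)), (63, (67536471195648000, (270145884782592000, 1849429631926822814919534902646355882101106017205199644429016)))),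
  ((.DD 4, (3, 1)), (26, (10151968619520, (40607874478080, 82865877249723599523884539273363)))),
  ((.DD 4, (5, 1)), (124, (17880203250000000000, (71520813000000000000, 448550833940785819091753151353649796391427966101694)))),
  ((.L 5, (2, 1)), (15, (9999360, (19998720, 463021199932988)))),
  ((.L 5, (3, 1)), (80, (237783237120, (475566474240, 1055066530948843651486272663)))),
  ((.C 5, (2, 1)), (31, (24815256521932800, (24815256521932800, 3310612720575299728193136297563712371210137271437468183365583403)))),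
  ((.C 5, (3, 1)), (80, (76457792934119864313446400, (152915585868239728626892800, 13652867815878807343590512300875532029720650020972685031383496912353012077912337082036316474647444393)))),
  ((.U 5, (2, 1)), (8, (13685760, (27371520, 728332269669992)))),
  ((.U 5, (3, 1)), (54, (258190571520, (516381143040, 1350675640108120739196605301)))),
  ((.D 5, (2, 1)), (15, (23499295948800, (46998591897600, 36515575044315717006141728321978318434567810)))),
  ((.D 5, (3, 1)), (80, (1289512799941305139200, (5158051199765220556800, 334476847993973656132629053880897603007463210094804336177262869993437)))),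
  ((.DD 5, (2, 1)), (7, (25015379558400, (50030759116800, 38871418595706269165901192486822486708237884)))),
  ((.DD 5, (2, 2)), (63, (1156864092324658937856000000, (4627456369298635751424000000, 3670387017028419476605064407446400012660459422068730768998356848129456988747550445852986167471444038904224590108705471972183464196808859909033220338)))),
  ((.DD 5, (3, 1)), (26, (650084965259666227200, (5200679722077329817600, 168620559732435850310224211462890720271901089087415118490950069279240)))),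
  ((.DD 5, (5, 1)), (124, (13624044368878125000000000000000, (54496177475512500000000000000000, 33057603698838216130232382311058846355542199564078366705594756948940040472912912237182203389830508474)))),
  ((.L 6, (2, 1)), (31, (20158709760, (40317419520, 2095389705843589426995666249)))),
  ((.C 6, (2, 1)), (63, (208114637736580743168000, (208114637736580743168000, 8738754130366207054716753963175731345041371830309841790516343221186154120795822307327627955456985522563981090963378245423)))),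
  ((.U 6, (2, 1)), (16, (9196830720, (55180984320, 955728976303133821425261897)))),
  ((.D 6, (2, 1)), (31, (50027557148216524800, (100055114296433049600, 3314049851949597918187793308531134388072091102728078745169037223698672886528196431608189)))),
  ((.DD 6, (2, 1)), (15, (51615733565620224000, (103231467131240448000, 3419257783757521661622326429436884686759939116493463308947218055941060919515964372818440)))),
  ((.DD 6, (3, 1)), (80, (13562847888583522730562256896000, (54251391554334090922249027584000, 1536235406407792822141480598053873411520443543326006448612055204913209648741899681216667164652535771245607582583186134308887805165737949288)))),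
  ((.L 7, (2, 1)), (63, (163849992929280, (327699985858560, 310256848991895294330561543463237476578328056155)))),
  ((.U 7, (2, 1)), (32, (227787103272960, (455574206545920, 431324455003404295197720822301007729180197670426)))),
  ((.D 7, (2, 1)), (63, (1691555775522928280469504000, (3383111551045856560939008000, 11801743075717855584010432761173118523286703452520270475971072909751696143001251405994474677611930272944091406575503094329799691363450934140649583463172118493288)))),
  ((.DD 7, (2, 1)), (31, (1718194449153210615595008000, (3436388898306421231190016000, 11987597297382703703443667922766395980346336577756810168506050435889518129505208121049518021107440688423631743054694215414161022448688435786444705552273239716881)))),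
  ((.U 8, (2, 1)), (64, (7434971050829414400, (14869942101658828800, 917334286341909105351327293941697414564951791445114376743887430619724682118508)))),
  ((.DD 8, (2, 1)), (63, (918817155086936330770931156779008000, (1837634310173872661541862313558016000, 114862411565988463396962567454935798250226176375948515796255902102618234846508950320927316947927835895068989864128765942014051130431970714101234009986957494261653542859504537275427422516476492066136856536391280745646344494178038958163293750887503903435419152370670608522847)))),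
  ((.G2, (2, 2)), (0, (251596800, (503193600, 21721381935869186603)))),
  ((.G2, (2, 3)), (56, (4329310519296, (12987931557888, 12801599473430453615554380804031492954)))),
  ((.G2, (3, 1)), (6, (4245696, (8491392, 6347890882041)))),
  ((.G2, (3, 2)), (72, (22594320403200, (90377281612800, 906794424096612068848405357969627)))),
  ((.G2, (5, 1)), (20, (5859000000, (5859000000, 15782673465788144644067)))),
  ((.G2, (7, 1)), (42, (664376138496, (664376138496, 23011050972783222959682305121)))),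
  ((.G2, (11, 1)), (110, (376611192619200, (376611192619200, 4191542807068319203835439276392678562)))),
  ((.TD4, (2, 1)), (16, (211341312, (634023936, 17936770518411881672)))),
  ((.Sz, (2, 3)), (7, (29120, (87360, 29789955)))),
  ((.Sz, (2, 5)), (31, (32537600, (162688000, 3966623715057736)))),
  ((.Ree, (3, 3)), (26, (10073444472, (30220333416, 80234674590539788595357))))]

/-- alternating groups: degree, order, order of the automorphism group, `Lc` -/
def Ta : List (ℕ × ℕ × ℕ × ℕ) := [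
  (5, (60, (120, 120))),
  (6, (360, (1440, 3423))),
  (7, (2520, (5040, 116335))),
  (8, (20160, (40320, 16928853))),
  (9, (181440, (362880, 1109211708))),
  (10, (1814400, (3628800, 532465356203))),
  (11, (19958400, (39916800, 630574256433111))),
  (12, (239500800, (479001600, 1079277784830625301))),
  (13, (3113510400, (6227020800, 2368512133304338309423))),
  (14, (43589145600, (87178291200, 6498775494611247702498711))),
  (15, (653837184000, (1307674368000, 21933261935222396805045728542))),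
  (16, (10461394944000, (20922789888000, 89845716315862515066881391789559))),
  (17, (177843714048000, (355687428096000, 441377220066535459663638480089816949))),
  (18, (3201186852864000, (6402373705728000, 2574111572959544715987435248453166687457)))]

/-- the table for the names -/
def chkKF (Y : Art.Sh) (D : ℕ) (al : List (((Art.Sh × ℕ × ℕ) × ℕ) × ℕ)) : Bool :=
  Tb.all fun y => chkTF Y D y.2.1 y.1 al y.2.2.1 y.2.2.2.1 y.2.2.2.2 y.1.2.1

/-- the table for the alternating groups -/
def chkKAF (Y : Art.Sh) (D m0 m : ℕ) (al : List ((ℕ × ℕ) × ℕ)) : Bool :=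
  Ta.all fun y => or (Nat.ble (Nat.succ y.1) m0) (or (Nat.ble (Nat.succ m) y.1)
    (chkTF Y D 0 y.1 al y.2.1 y.2.2.1 y.2.2.2 0))

/-- the table for the Tits group -/
def chkKTiF (Y : Art.Sh) (D : ℕ) (al : List ((Unit × ℕ) × ℕ)) : Bool :=
  chkTF Y D 0 () al 17971200 35942400 27218402342866006 0

/-- the data of the tables -/
def okB (y : (Art.Sh × ℕ × ℕ) × ℕ × ℕ × ℕ × ℕ) : Bool :=
  Nat.beq (lb y.1.1 (y.1.2.1 ^ y.1.2.2)) y.2.1 && (Nat.beq (od y.1.1 y.1.2.1 y.1.2.2) y.2.2.1 &&
    (Nat.beq (ouN y.1.1 y.1.2.1 y.1.2.2 * y.2.2.1) y.2.2.2.1 && (facOk y.2.2.1 && Nat.beq (Lc y.2.2.1) y.2.2.2.2)))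

def okA (y : ℕ × ℕ × ℕ × ℕ) : Bool :=
  Nat.beq (y.1.factorial / 2) y.2.1 && (Nat.beq (autA y.1) y.2.2.1 && (facOk y.2.1 && Nat.beq (Lc y.2.1) y.2.2.2))

/-- the hypotheses on the tables (kernel checks in `TabD.lean`) -/
structure Data : Prop where
  rg : reg 124 = Tb.map Prod.fst
  b : Tb.all okB = true
  a : Ta.all okA = true
  t : facOk 17971200 = true ∧ Lc 17971200 = 27218402342866006

theorem Data.name (hD : Data) {n : ℕ} {X : Art.Sh} {l a t : ℕ} (hn : n ≤ 124) (hr : (X, (l, a)) ∈ reg n)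
    (hT : Art.Real X l a t) : ((X, (l, a)), (lb X (l ^ a), (t, (ouN X l a * t, Lc t)))) ∈ Tb ∧ facOk t = true := by
  obtain ⟨r1, r2, r3, r4⟩ := mem_reg_iff.1 hr
  have hr' : (X, (l, a)) ∈ reg 124 := mem_reg_iff.2 ⟨r1, r2, r3.trans hn, r4⟩
  rw [hD.rg] at hr'
  obtain ⟨y, hy, he⟩ := List.mem_map.1 hr'
  have h1 := List.all_eq_true.1 hD.b y hy
  obtain ⟨x, b, t', a', L⟩ := y
  try simp only at he
  subst he
  rw [okB] at h1
  simp only [Bool.and_eq_true] at h1
  obtain ⟨h2, h3, h4, h5, h6⟩ := h1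
  have h2' := Nat.eq_of_beq_eq_true h2
  have h3' := Nat.eq_of_beq_eq_true h3
  have h4' := Nat.eq_of_beq_eq_true h4
  have h6' := Nat.eq_of_beq_eq_true h6
  try simp only at h2' h3' h4' h6' h5
  rw [← real_eq hT] at h3'
  subst h3'
  subst h2'
  subst h4'
  subst h6'
  exact ⟨hy, h5⟩

/-- **the table for the names of Lie type**, `k ≥ 2` -/
theorem chkKF_spec (hD : Data) {Y : Art.Sh} (hY : Y ∈ Ys) {D : ℕ} (hD248 : D ≤ 248)
    {al : List (((Art.Sh × ℕ × ℕ) × ℕ) × ℕ)}
    (hc : chkKF Y D al = true) {X : Art.Sh} {l a t k p f g : ℕ} (hk : 2 ≤ k) (hkD : k ≤ D / 2)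
    (hT : Art.Real X l a t) (hr : (X, (l, a)) ∈ reg (D / k)) (hG : Art.Real Y p f g) (hlp : l ≠ p)
    (hu : g ≤ Bk t (ouN X l a * t) k) (hd : t ^ k ∣ g) (ho : Odd p → Y ∈ Yo ∧ k ≤ kodd Y) :
    (((X, (l, a)), k), p ^ f) ∈ al := by
  have h124 : D / k ≤ 124 := (Nat.div_le_div hD248 hk (by norm_num)).trans (by norm_num)
  obtain ⟨h1, -⟩ := hD.name h124 hr hT
  have h2 := List.all_eq_true.1 hc _ h1
  refine chkTF_spec hY h2 rfl hk hkD (mem_reg_iff.1 hr).2.2.1 hG ?_ hu hd ho
  intro h3
  have h4 : l ∣ p ^ f := Nat.dvd_of_mod_eq_zero h3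
  exact hlp ((Nat.prime_dvd_prime_iff_eq hT.hp hG.hp).1 (hT.hp.dvd_of_dvd_pow h4))

/-- **the table for the alternating groups**, `k ≥ 2` -/
theorem chkKAF_spec (hD : Data) {Y : Art.Sh} (hY : Y ∈ Ys) {D m0 m : ℕ} {al : List ((ℕ × ℕ) × ℕ)}
    (hc : chkKAF Y D m0 m al = true) {n t k p f g : ℕ} (hk : 2 ≤ k) (hkD : k ≤ D / 2) (h5 : 5 ≤ n) (h18 : n ≤ 18)
    (hn0 : m0 ≤ n) (hn : n ≤ m) (ht : 2 * t = n.factorial)
    (hG : Art.Real Y p f g) (hu : g ≤ Bk t (autA n) k) (hd : t ^ k ∣ g) (ho : Odd p → Y ∈ Yo ∧ k ≤ kodd Y) :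
    ((n, k), p ^ f) ∈ al ∧ facOk t = true := by
  have hmem : n ∈ Ta.map Prod.fst := by
    interval_cases n <;> decide
  obtain ⟨y, hy, he⟩ := List.mem_map.1 hmem
  have h1 := List.all_eq_true.1 hD.a y hy
  have h2 := List.all_eq_true.1 hc y hy
  obtain ⟨x, t', a', L⟩ := y
  try simp only at he
  subst he
  rw [okA] at h1
  simp only [Bool.and_eq_true] at h1
  obtain ⟨h3, h4, h5', h6⟩ := h1
  have h3' := Nat.eq_of_beq_eq_true h3
  have h4' := Nat.eq_of_beq_eq_true h4
  have h6' := Nat.eq_of_beq_eq_true h6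
  try simp only at h3' h4' h6' h5'
  have ht' : t' = t := by omega
  subst ht'
  subst h4'
  simp only [Bool.or_eq_true, Nat.ble_eq] at h2
  rcases h2 with h2 | h2 | h2
  · exfalso
    have : x + 1 ≤ m0 := h2
    omega
  · exfalso
    have : m + 1 ≤ x := h2
    omega
  · refine ⟨chkTF_spec hY h2 h6' hk hkD (Nat.zero_le _) hG ?_ hu hd ho, h5'⟩
    rw [Nat.mod_zero]
    exact pow_ne_zero _ hG.hp.ne_zero

/-- **the table for the Tits group**, `k ≥ 2` -/
theorem chkKTiF_spec (hD : Data) {Y : Art.Sh} (hY : Y ∈ Ys) {D : ℕ} {al : List ((Unit × ℕ) × ℕ)}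
    (hc : chkKTiF Y D al = true) {k p f g : ℕ} (hk : 2 ≤ k) (hkD : k ≤ D / 2) (hG : Art.Real Y p f g)
    (hu : g ≤ Bk 17971200 35942400 k) (hd : 17971200 ^ k ∣ g) (ho : Odd p → Y ∈ Yo ∧ k ≤ kodd Y) :
    (((), k), p ^ f) ∈ al := by
  refine chkTF_spec hY hc hD.t.2 hk hkD (Nat.zero_le _) hG ?_ hu hd ho
  rw [Nat.mod_zero]
  exact pow_ne_zero _ hG.hp.ne_zero

end Cfsg.Agent.H252.EN
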