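import Cfsg.Agent.H252.EN.Tab
import Cfsg.Agent.H746.EK.Num

/-!
# S5745, layer ENUM: the tables for the socles `T ^ k`, `k ≥ 2` (helper252)

`Bk t a k` (helper746): the bound for `|G|`. `q` even: all `q = 2 ^ i` below the bound; `q` odd: the `2`-part of `|T| ^ k`
forces `2 ^ V ∣ q ^ 2 - 1`, so `q = s j ± 1` with `s = 2 ^ (V - 1)`.
-/

set_option autoImplicit false

namespace Cfsg.Agent.H252.EN

open Cfsg.Agent.H902 Cfsg.Agent.H290.ElReg Cfsg.Agent.H290.ElTab Cfsg.Agent.H290.ElCross Cfsg.Agent.H59.EP Finset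

/-! ### the `2`-adic bound -/

/-- `v₂(q² - 1)` -/
noncomputable def V2 (q : ℕ) : ℕ := padicValNat 2 (q ^ 2 - 1)

theorem v_two {q : ℕ} (hq : Odd q) (h3 : 3 ≤ q) : V2 q = padicValNat 2 (q + 1) + padicValNat 2 (q - 1) := by
  rw [V2, show q ^ 2 - 1 = (q + 1) * (q - 1) by
    obtain ⟨t, rfl⟩ := Nat.exists_eq_add_of_le' (show 1 ≤ q by omega)
    rw [Nat.add_sub_cancel]
    have : (t + 1) ^ 2 = (t + 1 + 1) * t + 1 := by ring
    rw [this, Nat.add_sub_cancel], padicValNat.mul (by omega) (by omega)]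

theorem v_even {q m : ℕ} (hq : Odd q) (h3 : 3 ≤ q) (hm : m ≠ 0) (he : Even m) :
    padicValNat 2 (q ^ m - 1) + 1 = V2 q + padicValNat 2 m := by
  have h := padicValNat.pow_two_sub_pow (n := m) (x := q) (y := 1) (by omega)
    (by obtain ⟨k, rfl⟩ := hq; exact ⟨k, by omega⟩) (by rw [Nat.two_dvd_ne_zero]; exact Nat.odd_iff.1 hq) hm he
  rw [one_pow] at h
  rw [h, v_two hq h3]

theorem pow_sub_ne {q m : ℕ} (h3 : 3 ≤ q) (hm : m ≠ 0) : q ^ m - 1 ≠ 0 := by
  have : q ≤ q ^ m := Nat.le_self_pow hm q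
  omega

theorem v_odd {q m : ℕ} (hq : Odd q) (h3 : 3 ≤ q) (hm : Odd m) :
    padicValNat 2 (q ^ m - 1) + 1 ≤ V2 q ∧ padicValNat 2 (q ^ m + 1) + 1 ≤ V2 q := by
  have hm0 : m ≠ 0 := by obtain ⟨k, rfl⟩ := hm; omega
  have h1 := v_even (m := m * 2) hq h3 (by omega) ⟨m, by ring⟩
  have h2 : q ^ (m * 2) - 1 = (q ^ m - 1) * (q ^ m + 1) := by
    have hge : 1 ≤ q ^ m := Nat.one_le_pow _ _ (by omega)
    obtain ⟨t, ht⟩ := Nat.exists_eq_add_of_le' hge
    rw [pow_mul, ht, Nat.add_sub_cancel]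
    have : (t + 1) ^ 2 = t * (t + 1 + 1) + 1 := by ring
    rw [this, Nat.add_sub_cancel]
  have h3' := pow_sub_ne h3 hm0
  rw [h2, padicValNat.mul h3' (by omega), padicValNat.mul hm0 (by norm_num),
    padicValNat.eq_zero_of_not_dvd (n := m) (by rw [Nat.two_dvd_ne_zero]; exact Nat.odd_iff.1 hm),
    padicValNat.self (by norm_num)] at h1
  have h4 : 1 ≤ padicValNat 2 (q ^ m - 1) := by
    apply one_le_padicValNat_of_dvd h3'
    obtain ⟨k, hk⟩ := hq.pow (n := m)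
    exact ⟨k, by omega⟩
  have h5 : 1 ≤ padicValNat 2 (q ^ m + 1) := by
    apply one_le_padicValNat_of_dvd (by omega)
    obtain ⟨k, hk⟩ := hq.pow (n := m)
    exact ⟨k + 1, by omega⟩
  omega

theorem V2_ge {q : ℕ} (hq : Odd q) (h3 : 3 ≤ q) : 3 ≤ V2 q := by
  have h1 : 8 ∣ q ^ 2 - 1 := Nat.eight_dvd_sq_sub_one_of_odd hq
  have h2 : 2 ^ 3 ∣ q ^ 2 - 1 := h1
  exact (padicValNat_dvd_iff_le (pow_sub_ne h3 (by norm_num))).1 h2

/-- the coefficients -/
def cf : Art.Sh → ℕ × ℕ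
  | .E8 => (8, 6)
  | .E7 => (7, 3)
  | .E6 => (6, 1)
  | .TE6 => (6, 1)
  | .F4 => (4, 3)
  | _ => (1, 0)

/-- the families with `q` odd -/
def Yo : List Art.Sh := [.E8, .E7, .E6, .TE6, .F4]

theorem val_num {Y : Art.Sh} (hY : Y ∈ Yo) {q : ℕ} (hq : Odd q) (h3 : 3 ≤ q) :
    Art.num Y q ≠ 0 ∧ padicValNat 2 (Art.num Y q) ≤ (cf Y).1 * V2 q + (cf Y).2 := by
  have ne : ∀ m, m ≠ 0 → q ^ m - 1 ≠ 0 := fun m hm => pow_sub_ne h3 hm
  have ev : ∀ m, m ≠ 0 → Even m → padicValNat 2 (q ^ m - 1) + 1 = V2 q + padicValNat 2 m := fun m hm he =>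
    v_even hq h3 hm he
  have e2 := ev 2 (by norm_num) (by decide)
  have e6 := ev 6 (by norm_num) (by decide)
  have e8 := ev 8 (by norm_num) (by decide)
  have e10 := ev 10 (by norm_num) (by decide)
  have e12 := ev 12 (by norm_num) (by decide)
  have e14 := ev 14 (by norm_num) (by decide)
  have e18 := ev 18 (by norm_num) (by decide)
  have e20 := ev 20 (by norm_num) (by decide)
  have e24 := ev 24 (by norm_num) (by decide)
  have e30 := ev 30 (by norm_num) (by decide)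
  have o5 := v_odd (m := 5) hq h3 (by decide)
  have o9 := v_odd (m := 9) hq h3 (by decide)
  have w2 : padicValNat 2 2 = 1 := padicValNat.self (by norm_num)
  have pv : ∀ a b : ℕ, Odd b → padicValNat 2 (2 ^ a * b) = a := by
    intro a b hb
    rw [padicValNat.mul (by positivity) (by rintro rfl; exact absurd hb (by decide)), padicValNat.prime_pow,
      padicValNat.eq_zero_of_not_dvd (n := b) (by rw [Nat.two_dvd_ne_zero]; exact Nat.odd_iff.1 hb), add_zero]
  have w6 : padicValNat 2 6 = 1 := pv 1 3 (by decide)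
  have w8 : padicValNat 2 8 = 3 := pv 3 1 (by decide)
  have w10 : padicValNat 2 10 = 1 := pv 1 5 (by decide)
  have w12 : padicValNat 2 12 = 2 := pv 2 3 (by decide)
  have w14 : padicValNat 2 14 = 1 := pv 1 7 (by decide)
  have w18 : padicValNat 2 18 = 1 := pv 1 9 (by decide)
  have w20 : padicValNat 2 20 = 2 := pv 2 5 (by decide)
  have w24 : padicValNat 2 24 = 3 := pv 3 3 (by decide)
  have w30 : padicValNat 2 30 = 1 := pv 1 15 (by decide)
  simp only [Yo, List.mem_cons, List.not_mem_nil, or_false] at hY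
  rcases hY with rfl | rfl | rfl | rfl | rfl <;> simp only [Art.num, cf] <;> refine ⟨?_, ?_⟩ <;>
    first
    | (repeat' apply Nat.mul_ne_zero) <;> first | exact ne _ (by norm_num) | exact Nat.succ_ne_zero _
    | (repeat rw [padicValNat.mul (by (repeat' apply Nat.mul_ne_zero) <;>
        first | exact ne _ (by norm_num) | exact Nat.succ_ne_zero _)
        (by first | exact ne _ (by norm_num) | exact Nat.succ_ne_zero _)]) <;> omega

theorem V2_of {Y : Art.Sh} (hY : Y ∈ Yo) {q w : ℕ} (hq : Odd q) (h3 : 3 ≤ q) (h : 2 ^ w ∣ q ^ Art.NN Y * Art.num Y q) :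
    w ≤ (cf Y).1 * V2 q + (cf Y).2 := by
  obtain ⟨h1, h2⟩ := val_num hY hq h3
  have h4 : 2 ^ w ∣ Art.num Y q := by
    refine Nat.Coprime.dvd_of_dvd_mul_left ?_ h
    exact Nat.Coprime.pow _ _ (Nat.coprime_two_left.2 hq)
  exact ((padicValNat_dvd_iff_le h1).1 h4).trans h2

theorem dvd_of_consec {a m : ℕ} (h : 2 ^ a ∣ m * (m + 1)) : 2 ^ a ∣ m ∨ 2 ^ a ∣ m + 1 := by
  rcases Nat.even_or_odd m with hm | hm
  · left
    refine Nat.Coprime.dvd_of_dvd_mul_right ?_ h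
    exact Nat.Coprime.pow_left _ (Nat.coprime_two_left.2 hm.add_one)
  · right
    refine Nat.Coprime.dvd_of_dvd_mul_left ?_ h
    exact Nat.Coprime.pow_left _ (Nat.coprime_two_left.2 hm)

theorem pm {q k : ℕ} (hq : Odd q) (h : 2 ^ (k + 2) ∣ q ^ 2 - 1) :
    ∃ j, q = 2 ^ (k + 1) * j + 1 ∨ q + 1 = 2 ^ (k + 1) * j := by
  obtain ⟨m, rfl⟩ := hq
  have h1 : (2 * m + 1) ^ 2 - 1 = 4 * (m * (m + 1)) := by
    have : (2 * m + 1) ^ 2 = 4 * (m * (m + 1)) + 1 := by ring
    rw [this, Nat.add_sub_cancel]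
  rw [h1, show 2 ^ (k + 2) = 4 * 2 ^ k by ring] at h
  rcases dvd_of_consec (Nat.dvd_of_mul_dvd_mul_left (by norm_num) h) with ⟨j, hj⟩ | ⟨j, hj⟩
  · exact ⟨j, Or.inl (by rw [hj]; ring)⟩
  · exact ⟨j, Or.inr (by rw [show 2 * m + 1 + 1 = 2 * (m + 1) by ring, hj]; ring)⟩

/-! ### the test -/

theorem vf_dvd (r k B : ℕ) : r ^ vf r k B ∣ B := by
  induction k generalizing B with
  | zero => exact one_dvd _
  | succ k ih =>
    rw [vf]
    split_ifs with h
    · rw [pow_succ']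
      obtain ⟨c, hc⟩ := Nat.dvd_of_mod_eq_zero h
      rcases Nat.eq_zero_or_pos r with h0 | h0
      · subst h0
        rw [zero_mul] at hc
        rw [hc, zero_mul]
      · rw [hc, Nat.mul_div_cancel_left _ h0]
        exact Nat.mul_dvd_mul_left r (ih c)
    · exact one_dvd _

variable {α : Type} [DecidableEq α]

/-- the test for one `q` -/
def tq (Y : Art.Sh) (lab : α) (al : List (α × ℕ)) (m l u q : ℕ) : Bool :=
  Nat.ble q 1 || (q % l == 0 ||
    force (q ^ Art.NN Y * Art.num Y q) fun v => force (Art.dd Y q) fun d =>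
      Nat.blt (u * d) v || (v % (m * d) != 0 || al.contains (lab, q)))

/-- the dimensions -/
def dmN : Art.Sh → ℕ
  | .E8 => 248
  | .E7 => 133
  | .E6 => 78
  | .TE6 => 78
  | .F4 => 52
  | .TD4 => 28
  | _ => 14

/-- a bound for `q` -/
def gtN (Y : Art.Sh) (u : ℕ) : Option ℕ :=
  ((List.range 12).flatMap fun i => [4, 5, 6, 7].map fun c =>
    2 ^ (Nat.log2 (3 * u) / dmN Y - 2 + i) * c).find? fun N => Nat.blt (3 * u) (N ^ Art.NN Y * Art.num Y N)

/-- the test for `q` even -/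
def chkE (Y : Art.Sh) (lab : α) (al : List (α × ℕ)) (m l u N : ℕ) : Bool :=
  l == 2 || (List.range (Nat.log2 N + 1)).all fun i => tq Y lab al m l u (2 ^ i)

/-- the test for `q` odd, `2 ^ w ∣ m` -/
def chkO (Y : Art.Sh) (lab : α) (al : List (α × ℕ)) (m l u N w : ℕ) : Bool :=
  force (2 ^ (max 3 ((w - (cf Y).2 + (cf Y).1 - 1) / (cf Y).1) - 1)) fun s =>
    (List.range (N / s + 2)).all fun j => (Nat.ble N (s * j + 1) || tq Y lab al m l u (s * j + 1)) &&
      (Nat.ble N (s * j - 1) || tq Y lab al m l u (s * j - 1))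

/-- the values of `k` with `q` odd -/
def kodd : Art.Sh → ℕ
  | .E8 => 1000
  | .E7 => 1000
  | .E6 => 3
  | .TE6 => 3
  | .F4 => 3
  | _ => 0

/-- the test for `T ^ k`, `|T| = t`, bound `u` for `|G|` -/
def chkU (Y : Art.Sh) (lab : α) (al : List (α × ℕ)) (t k l u : ℕ) : Bool :=
  match gtN Y u with
  | none => false
  | some N => force (t ^ k) fun m => chkE Y lab al m l u N &&
      (Nat.blt (kodd Y) k || chkO Y lab al m l u N (k * vf 2 400 t))

theorem tq_spec {Y : Art.Sh} {lab : α} {al : List (α × ℕ)} {m l u p f g : ℕ}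
    (h : tq Y lab al m l u (p ^ f) = true) (hG : Art.Real Y p f g) (hl : p ^ f % l ≠ 0) (hu : g ≤ u)
    (hd : m ∣ g) : (lab, p ^ f) ∈ al := by
  have hq : 2 ≤ p ^ f := hG.hp.two_le.trans (Nat.le_self_pow (by have := hG.hf; omega) p)
  rw [tq, force_eq, force_eq] at h
  simp only [Bool.or_eq_true, Nat.ble_eq, beq_iff_eq, Nat.blt_eq, bne_iff_ne, List.contains_iff_mem] at h
  rcases h with h3 | h3 | h3 | h3 | h3
  · omega
  · exact absurd h3 hl
  · exfalso
    rw [← hG.eq, mul_comm] at h3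
    exact absurd (Nat.mul_le_mul_left (Art.dd Y (p ^ f)) hu) (by omega)
  · exfalso
    apply h3
    rw [← hG.eq, mul_comm m]
    exact Nat.mod_eq_zero_of_dvd (Nat.mul_dvd_mul_left _ hd)
  · exact h3

theorem chkU_spec {Y : Art.Sh} (hY : Y ∈ Ys) {lab : α} {al : List (α × ℕ)} {t k l u : ℕ}
    (h : chkU Y lab al t k l u = true) {p f g : ℕ} (hG : Art.Real Y p f g) (hl : p ^ f % l ≠ 0) (hu : g ≤ u)
    (hd : t ^ k ∣ g) (hk : Odd p → Y ∈ Yo ∧ k ≤ kodd Y) : (lab, p ^ f) ∈ al := by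
  have hq : 2 ≤ p ^ f := hG.hp.two_le.trans (Nat.le_self_pow (by have := hG.hf; omega) p)
  rw [chkU] at h
  cases hN : gtN Y u with
  | none => rw [hN] at h; exact absurd h (by simp)
  | some N =>
    rw [hN] at h
    have h1 := List.find?_some hN
    simp only [Nat.blt_eq] at h1
    have h2 : p ^ f < N := by
      by_contra hcon
      push Not at hcon
      have h3 : N ^ Art.NN Y * Art.num Y N ≤ (p ^ f) ^ Art.NN Y * Art.num Y (p ^ f) :=
        Nat.mul_le_mul (Nat.pow_le_pow_left hcon _) (num_mono hY hcon)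
      rw [← hG.eq] at h3
      have h4 : Art.dd Y (p ^ f) * g ≤ 3 * u := Nat.mul_le_mul (dd_le hY _) hu
      omega
    simp only [force_eq, Bool.and_eq_true, Bool.or_eq_true, Nat.blt_eq] at h
    obtain ⟨hE, hO⟩ := h
    rcases hG.hp.eq_two_or_odd' with h5 | h5
    · rw [chkE, Bool.or_eq_true] at hE
      rcases hE with hE | hE
      · exfalso
        apply hl
        rw [beq_iff_eq.1 hE, h5]
        exact Nat.mod_eq_zero_of_dvd (dvd_pow_self 2 (by have := hG.hf; omega))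
      · have h6 := List.all_eq_true.1 hE f (List.mem_range.2 (by
          have h7 : 2 ^ f < N := by rw [h5] at h2; exact h2
          have h8 := (Nat.le_log2 (by omega)).2 h7.le
          omega))
        rw [← h5] at h6
        exact tq_spec h6 hG hl hu hd
    · obtain ⟨hYo, hk'⟩ := hk h5
      rcases hO with hO | hO
      · omega
      have hqo : Odd (p ^ f) := h5.pow
      have hq3 : 3 ≤ p ^ f := by
        obtain ⟨c, hc⟩ := hqo
        omega
      have h6 : 2 ^ (k * vf 2 400 t) ∣ (p ^ f) ^ Art.NN Y * Art.num Y (p ^ f) := by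
        rw [← hG.eq, mul_comm k, pow_mul]
        exact ((pow_dvd_pow_of_dvd (vf_dvd 2 400 t) k).trans hd).mul_left _
      have h7 := V2_of hYo hqo hq3 h6
      rw [chkO, force_eq] at hO
      set w := k * vf 2 400 t
      set V := max 3 ((w - (cf Y).2 + (cf Y).1 - 1) / (cf Y).1)
      have hc1 : 0 < (cf Y).1 := by
        simp only [Yo, List.mem_cons, List.not_mem_nil, or_false] at hYo
        rcases hYo with rfl | rfl | rfl | rfl | rfl <;> simp [cf]
      have hV : V ≤ V2 (p ^ f) := by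
        refine max_le (V2_ge hqo hq3) ?_
        rw [← Nat.lt_succ_iff, Nat.div_lt_iff_lt_mul hc1, Nat.succ_mul, mul_comm]
        omega
      have hV3 : 3 ≤ V := le_max_left _ _
      obtain ⟨V', hV'⟩ : ∃ V', V = V' + 2 := ⟨V - 2, by omega⟩
      have h8 : 2 ^ (V' + 2) ∣ (p ^ f) ^ 2 - 1 := by
        rw [← hV']
        exact (padicValNat_dvd_iff_le (pow_sub_ne hq3 (by norm_num))).2 hV
      have hs : 2 ^ (V - 1) = 2 ^ (V' + 1) := by rw [hV']; rfl
      rw [hs] at hO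
      have hs1 : 2 ≤ 2 ^ (V' + 1) := by
        rw [pow_succ]
        have := Nat.one_le_two_pow (n := V')
        omega
      have key : ∀ j, (p ^ f = 2 ^ (V' + 1) * j + 1 ∨ p ^ f + 1 = 2 ^ (V' + 1) * j) → (lab, p ^ f) ∈ al := by
        intro j hj
        have h9 : 2 ^ (V' + 1) * j ≤ N := by omega
        have h9' : j ≤ N / 2 ^ (V' + 1) := (Nat.le_div_iff_mul_le (by omega)).2 (by rw [mul_comm]; exact h9)
        have h10 := List.all_eq_true.1 hO j (List.mem_range.2 (by omega))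
        rw [Bool.and_eq_true, Bool.or_eq_true, Bool.or_eq_true, Nat.ble_eq, Nat.ble_eq] at h10
        rcases hj with hj | hj
        · rcases h10.1 with h11 | h11
          · omega
          · rw [← hj] at h11
            exact tq_spec h11 hG hl hu hd
        · have hj' : 2 ^ (V' + 1) * j - 1 = p ^ f := by omega
          rcases h10.2 with h11 | h11
          · omega
          · rw [hj'] at h11
            exact tq_spec h11 hG hl hu hd
      obtain ⟨j, hj⟩ := pm hqo h8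
      exact key j hj

/-! ### the tables -/

open Cfsg.Agent.H746.EK

/-- `Bk` with `Lc t` evaluated -/
def BkL (L t a k : ℕ) : ℕ := (1 + (L ^ k + Ik t a k) * (2 * Dk t k)) * (a ^ k * k.factorial)

theorem BkL_eq (t a k : ℕ) : BkL (Lc t) t a k = Bk t a k := rfl

/-- the test for all `k` -/
def chkT2 (Y : Art.Sh) (D b : ℕ) (lab : α) (al : List ((α × ℕ) × ℕ)) (t a l : ℕ) : Bool :=
  facOk t && force (Lc t) fun L => (List.range (D / 2 + 1)).all fun k => Nat.blt k 2 || (Nat.blt (D / k) b ||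
    force (BkL L t a k) fun u => chkU Y (lab, k) al t k l u)

theorem chkT2_spec {Y : Art.Sh} (hY : Y ∈ Ys) {D b : ℕ} {lab : α} {al : List ((α × ℕ) × ℕ)} {t a l : ℕ}
    (h : chkT2 Y D b lab al t a l = true) {k p f g : ℕ} (hk : 2 ≤ k) (hkD : k ≤ D / 2) (hb : b ≤ D / k)
    (hG : Art.Real Y p f g) (hl : p ^ f % l ≠ 0) (hu : g ≤ Bk t a k) (hd : t ^ k ∣ g)
    (ho : Odd p → Y ∈ Yo ∧ k ≤ kodd Y) : ((lab, k), p ^ f) ∈ al := by
  rw [chkT2, Bool.and_eq_true, force_eq] at h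
  have h1 := List.all_eq_true.1 h.2 k (List.mem_range.2 (by omega))
  rw [force_eq, BkL_eq] at h1
  simp only [Bool.or_eq_true, Nat.blt_eq] at h1
  rcases h1 with h1 | h1 | h1
  · omega
  · omega
  · exact chkU_spec hY h1 hG hl hu hd ho

/-- the test for the region -/
def chkKL (Y : Art.Sh) (D : ℕ) (al : List (((Art.Sh × ℕ × ℕ) × ℕ) × ℕ)) : Bool :=
  (reg (D / 2)).all fun x => force (od x.1 x.2.1 x.2.2) fun t => force (ouN x.1 x.2.1 x.2.2 * t) fun a =>
    force (lb x.1 (x.2.1 ^ x.2.2)) fun b => chkT2 Y D b x al t a x.2.1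

theorem mem_reg_iff {n : ℕ} {X : Art.Sh} {l a : ℕ} : (X, (l, a)) ∈ reg n ↔
    X ∈ shs ∧ (l, a) ∈ qs ∧ lb X (l ^ a) ≤ n ∧ Art.Ok X l a := by
  simp only [reg, List.mem_flatMap, List.mem_map, List.mem_filter, Bool.and_eq_true, Nat.ble_eq, decide_eq_true_eq]
  constructor
  · rintro ⟨X', h1, x, ⟨h2, h3, h4⟩, h5⟩
    obtain ⟨rfl, rfl⟩ := Prod.mk.inj h5
    exact ⟨h1, h2, h3, h4⟩
  · rintro ⟨h1, h2, h3, h4⟩
    exact ⟨X, h1, (l, a), ⟨h2, h3, h4⟩, rfl⟩

/-- **the table for the names of Lie type**, `k ≥ 2` -/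
theorem chkKL_spec {Y : Art.Sh} (hY : Y ∈ Ys) {D : ℕ} {al : List (((Art.Sh × ℕ × ℕ) × ℕ) × ℕ)}
    (hc : chkKL Y D al = true) {X : Art.Sh} {l a t k p f g : ℕ} (hk : 2 ≤ k) (hkD : k ≤ D / 2)
    (hT : Art.Real X l a t) (hr : (X, (l, a)) ∈ reg (D / k)) (hG : Art.Real Y p f g) (hlp : l ≠ p)
    (hu : g ≤ Bk t (ouN X l a * t) k) (hd : t ^ k ∣ g) (ho : Odd p → Y ∈ Yo ∧ k ≤ kodd Y) :
    (((X, (l, a)), k), p ^ f) ∈ al := by
  obtain ⟨r1, r2, r3, r4⟩ := mem_reg_iff.1 hr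
  have hr' : (X, (l, a)) ∈ reg (D / 2) := mem_reg_iff.2 ⟨r1, r2, r3.trans (Nat.div_le_div_left hk (by norm_num)), r4⟩
  have h1 := List.all_eq_true.1 hc _ hr'
  rw [force_eq, force_eq, force_eq, ← real_eq hT] at h1
  refine chkT2_spec hY h1 hk hkD r3 hG ?_ hu hd ho
  intro h2
  have h3 : l ∣ p ^ f := Nat.dvd_of_mod_eq_zero h2
  exact hlp ((Nat.prime_dvd_prime_iff_eq hT.hp hG.hp).1 (hT.hp.dvd_of_dvd_pow h3))

theorem chkKL_fac {Y : Art.Sh} {D : ℕ} {al : List (((Art.Sh × ℕ × ℕ) × ℕ) × ℕ)}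
    (hc : chkKL Y D al = true) {X : Art.Sh} {l a t k : ℕ} (hk : 2 ≤ k)
    (hT : Art.Real X l a t) (hr : (X, (l, a)) ∈ reg (D / k)) : facOk t = true := by
  obtain ⟨r1, r2, r3, r4⟩ := mem_reg_iff.1 hr
  have hr' : (X, (l, a)) ∈ reg (D / 2) := mem_reg_iff.2 ⟨r1, r2, r3.trans (Nat.div_le_div_left hk (by norm_num)), r4⟩
  have h1 := List.all_eq_true.1 hc _ hr'
  rw [force_eq, force_eq, force_eq, ← real_eq hT, chkT2, Bool.and_eq_true] at h1
  exact h1.1

/-- the test for the alternating groups -/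
def chkKA (Y : Art.Sh) (D m0 m : ℕ) (al : List ((ℕ × ℕ) × ℕ)) : Bool :=
  (List.range (m + 1)).all fun n => Nat.blt n m0 || force (n.factorial / 2) fun t => force (autA n) fun a =>
    chkT2 Y D 0 n al t a 0

theorem chkKA_spec {Y : Art.Sh} (hY : Y ∈ Ys) {D m0 m : ℕ} {al : List ((ℕ × ℕ) × ℕ)} (hc : chkKA Y D m0 m al = true)
    {n t k p f g : ℕ} (hk : 2 ≤ k) (hkD : k ≤ D / 2) (hn0 : m0 ≤ n) (hn : n ≤ m) (ht : 2 * t = n.factorial)
    (hG : Art.Real Y p f g) (hu : g ≤ Bk t (autA n) k) (hd : t ^ k ∣ g) (ho : Odd p → Y ∈ Yo ∧ k ≤ kodd Y) :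
    ((n, k), p ^ f) ∈ al ∧ facOk t = true := by
  have h1 := List.all_eq_true.1 hc n (List.mem_range.2 (by omega))
  rw [force_eq, force_eq, Bool.or_eq_true, Nat.blt_eq, show n.factorial / 2 = t by omega] at h1
  rcases h1 with h1 | h1
  · omega
  refine ⟨chkT2_spec hY h1 hk hkD (Nat.zero_le _) hG ?_ hu hd ho, ?_⟩
  · rw [Nat.mod_zero]
    exact pow_ne_zero _ hG.hp.ne_zero
  · rw [chkT2, Bool.and_eq_true] at h1
    exact h1.1

/-- the test for the Tits group -/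
def chkKTi (Y : Art.Sh) (D : ℕ) (al : List ((Unit × ℕ) × ℕ)) : Bool := chkT2 Y D 0 () al 17971200 35942400 0

end Cfsg.Agent.H252.EN
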