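import Cfsg.Agent.H252.EN.TabLists

/-!
# S5745, layer ENUM, `T ^ k`, `k ≥ 2`: kernel checks (helper252)
-/

set_option autoImplicit false

namespace Cfsg.Agent.H252.EN

open Cfsg.Agent.H902 Cfsg.Agent.H290.ElReg Cfsg.Agent.H290.ElTab Cfsg.Agent.H746.EK

set_option maxRecDepth 100000

theorem chkK_f4 : chkKF .F4 52 alKF4 = true := by decide +kernel

theorem chkKA_f4 : chkKAF .F4 52 5 11 alAF4 = true := by decide +kernel

theorem chkKTi_f4 : chkKTiF .F4 52 alTF4 = true := by decide +kernel

theorem chkK_td4 : chkKF .TD4 28 alKTD4 = true := by decide +kernel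

theorem chkKA_td4 : chkKAF .TD4 28 5 7 alATD4 = true := by decide +kernel

theorem chkKTi_td4 : chkKTiF .TD4 28 alTTD4 = true := by decide +kernel

theorem chkK_td4_8 : chkKF .TD4 8 alKTD4e = true := by decide +kernel

theorem chkKA_td4_8 : chkKAF .TD4 8 5 7 alATD4 = true := by decide +kernel

theorem chkKTi_td4_8 : chkKTiF .TD4 8 alTTD4 = true := by decide +kernel

theorem chkK_g2 : chkKF .G2 14 alKG2 = true := by decide +kernel

theorem chkKA_g2 : chkKAF .G2 14 5 7 alAG2 = true := by decide +kernel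

theorem chkKTi_g2 : chkKTiF .G2 14 alTG2 = true := by decide +kernel

theorem chkK_g2_7 : chkKF .G2 7 alKG2 = true := by decide +kernel

end Cfsg.Agent.H252.EN
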