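import Cfsg.Agent.H252.EN.TabLists

/-!
# S5745, layer ENUM, `T ^ k`, `k ≥ 2`: kernel checks (helper252)
-/

set_option autoImplicit false

namespace Cfsg.Agent.H252.EN

open Cfsg.Agent.H902 Cfsg.Agent.H290.ElReg Cfsg.Agent.H290.ElTab Cfsg.Agent.H746.EK

set_option maxRecDepth 100000

theorem chkK_e7 : chkKF .E7 133 alKE7 = true := by decide +kernel

theorem chkKA_e7 : chkKAF .E7 133 5 14 alAE7 = true := by decide +kernel

theorem chkKTi_e7 : chkKTiF .E7 133 alTE7 = true := by decide +kernel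

end Cfsg.Agent.H252.EN
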