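import Cfsg.Agent.H252.EN.TabKG
import Cfsg.Agent.H252.EN.TabKH
import Cfsg.Agent.H252.EN.TabKE
import Cfsg.Agent.H252.EN.TabKC
import Cfsg.Agent.H252.EN.TabKB
import Cfsg.Agent.H252.EN.TabKA
import Cfsg.Agent.H252.EN.TabD

/-!
# S5745, layer ENUM, `T ^ k`, `k ≥ 2`: all kernel checks (helper252)
-/

set_option autoImplicit false

namespace Cfsg.Agent.H252.EN

theorem chkKA_e8 : chkKAF .E8 248 5 18 alAE8 = true := chkKAF_join chkKA_e8_5 chkKA_e8_11

end Cfsg.Agent.H252.EN
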