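import Cfsg.Agent.H252.EN.TabF

/-!
# S5745, layer ENUM, `T ^ k`, `k ≥ 2`: the lists of the survivors (helper252)

Entries `((name, k), q)`. The kernel checks: `TabKA` (`F₄`, `³D₄`, `G₂`), `TabKB` (`E₆`, `²E₆`), `TabKC` (`E₇`), `TabKE`
(`E₈`).
-/

set_option autoImplicit false

namespace Cfsg.Agent.H252.EN

open Cfsg.Agent.H902

/-- `F₄(q)` (`q` odd: `k ≤ 3`) -/
def alKF4 : List (((Art.Sh × ℕ × ℕ) × ℕ) × ℕ) :=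
  [(((.L 2, (3, 2)), 2), 2), (((.L 3, (2, 2)), 2), 3), (((.L 3, (2, 2)), 3), 7), (((.U 3, (3, 1)), 2), 2),
   (((.L 4, (2, 1)), 2), 3), (((.L 4, (2, 1)), 3), 7), (((.U 4, (2, 1)), 2), 3), (((.Sz, (2, 3)), 2), 3)]

def alAF4 : List ((ℕ × ℕ) × ℕ) :=
  [((6, 2), 2), ((7, 2), 2), ((8, 2), 2), ((8, 2), 3), ((8, 2), 4), ((8, 3), 7), ((9, 2), 3), ((10, 3), 15)]

def alTF4 : List ((Unit × ℕ) × ℕ) := [(((), 2), 4)]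

/-- `³D₄(q)`, `q` even -/
def alKTD4 : List (((Art.Sh × ℕ × ℕ) × ℕ) × ℕ) :=
  [(((.L 2, (3, 2)), 2), 4), (((.L 2, (7, 1)), 2), 2), (((.L 2, (13, 1)), 2), 4), (((.U 3, (3, 1)), 2), 8)]

def alATD4 : List ((ℕ × ℕ) × ℕ) := [((6, 2), 4), ((7, 2), 4)]

def alTTD4 : List ((Unit × ℕ) × ℕ) := []

/-- `³D₄(q)`, `q` even, the 8-dimensional module (`D = 8`) -/
def alKTD4e : List (((Art.Sh × ℕ × ℕ) × ℕ) × ℕ) := [(((.L 2, (3, 2)), 2), 4), (((.L 2, (7, 1)), 2), 2)]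

/-- `G₂(q)`, `q` even -/
def alKG2 : List (((Art.Sh × ℕ × ℕ) × ℕ) × ℕ) := [(((.L 2, (5, 1)), 2), 4), (((.L 2, (7, 1)), 2), 8)]

def alAG2 : List ((ℕ × ℕ) × ℕ) := [((5, 2), 4)]

def alTG2 : List ((Unit × ℕ) × ℕ) := []

/-- `E₆(q)` (`q` odd: `k ≤ 3`) -/
def alKE6 : List (((Art.Sh × ℕ × ℕ) × ℕ) × ℕ) := [(((.U 3, (3, 1)), 2), 2)]

def alAE6 : List ((ℕ × ℕ) × ℕ) := [((7, 2), 2), ((8, 2), 2), ((8, 3), 4), ((9, 2), 3), ((10, 2), 4)]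

def alTE6K : List ((Unit × ℕ) × ℕ) := [(((), 2), 4)]

/-- `²E₆(q)` (`q` odd: `k ≤ 3`) -/
def alKTE6 : List (((Art.Sh × ℕ × ℕ) × ℕ) × ℕ) :=
  [(((.C 2, (3, 1)), 2), 2), (((.C 3, (2, 1)), 2), 3), (((.U 3, (3, 1)), 2), 2)]

def alATE6 : List ((ℕ × ℕ) × ℕ) := [((7, 2), 2), ((8, 2), 2), ((9, 2), 2), ((9, 2), 3)]

def alTTE6 : List ((Unit × ℕ) × ℕ) := [(((), 2), 4)]

/-- `E₇(q)` -/
def alKE7 : List (((Art.Sh × ℕ × ℕ) × ℕ) × ℕ) := [(((.U 3, (3, 1)), 3), 2)]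

def alAE7 : List ((ℕ × ℕ) × ℕ) := []

def alTE7 : List ((Unit × ℕ) × ℕ) := [(((), 3), 4)]

/-- `E₈(q)` -/
def alKE8 : List (((Art.Sh × ℕ × ℕ) × ℕ) × ℕ) := []

def alAE8 : List ((ℕ × ℕ) × ℕ) := [((13, 2), 2), ((14, 2), 2)]

def alTE8 : List ((Unit × ℕ) × ℕ) := []

/-- two ranges of degrees -/
theorem chkKAF_join {Y : Art.Sh} {D a b c : ℕ} {al : List ((ℕ × ℕ) × ℕ)} (h1 : chkKAF Y D a b al = true)
    (h2 : chkKAF Y D (b + 1) c al = true) : chkKAF Y D a c al = true := by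
  rw [chkKAF, List.all_eq_true] at *
  intro y hy
  have h3 := h1 y hy
  have h4 := h2 y hy
  simp only [Bool.or_eq_true, Nat.ble_eq] at *
  rcases h3 with h3 | h3 | h3
  · exact Or.inl h3
  · rcases h4 with h4 | h4 | h4
    · exfalso
      have e1 : y.1 + 1 ≤ b + 1 := h4
      have e2 : b + 1 ≤ y.1 := h3
      omega
    · exact Or.inr (Or.inl h4)
    · exact Or.inr (Or.inr h4)
  · exact Or.inr (Or.inr h3)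

end Cfsg.Agent.H252.EN
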